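import Cfsg.Agent.S0215
import Cfsg.Agent.Lib.Trans.Basic
import Cfsg.Agent.Lib.PLocal.Core

/-! # Abelian Sylow 2-subgroups and the Z*-theorem -/

set_option autoImplicit false
set_option linter.unusedSectionVars false

namespace CfsgLib.ZStarAb

open Cfsg

universe u

section Main

variable {Γ : Type u} [Group Γ] [Finite Γ]

/-- If `O(Γ) = 1`, `Γ` has no central involution and `Q` is an abelian Sylow `2`-subgroup, then `Q` lies in every normal
subgroup `H` with `Γ / H` an abelian `2`-group. -/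
theorem sylow_le_of_no_central (hO : ∀ N : Subgroup Γ, N.Normal → Odd (Nat.card N) → N = ⊥)
    (hZ : ∀ z : Γ, z * z = 1 → (∀ g, z * g = g * z) → z = 1) (Q : Sylow 2 Γ)
    (hab : ∀ a ∈ Q, ∀ b ∈ Q, a * b = b * a) (H : Subgroup Γ) [hH : H.Normal]
    (h2 : ∀ γ : Γ, ∃ j : ℕ, γ ^ (2 ^ j) ∈ H) (hcomm : ∀ a b : Γ, a * b * a⁻¹ * b⁻¹ ∈ H) :
    (Q : Subgroup Γ) ≤ H := by
  classical
  haveI : Fact (Nat.Prime 2) := ⟨Nat.prime_two⟩
  letI : Fintype Γ := Fintype.ofFinite Γ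
  intro q hq
  by_contra hqH
  let N : Subgroup Γ := Subgroup.normalizer ((Q : Subgroup Γ) : Set Γ)
  let K : Subgroup N := (Q : Subgroup Γ).subgroupOf N
  haveI : Fintype (N ⧸ K) := Fintype.ofFinite _
  letI cQ : CommGroup (Q : Subgroup Γ) :=
    { (inferInstance : Group (Q : Subgroup Γ)) with mul_comm := fun a b => Subtype.ext (hab a a.2 b b.2) }
  have hNmem : ∀ (n : N) (u : Γ), u ∈ (Q : Subgroup Γ) → (n : Γ) * u * (n : Γ)⁻¹ ∈ (Q : Subgroup Γ) := by
    intro n u hu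
    exact (Subgroup.mem_normalizer_iff.1 n.2 u).1 hu
  let term : N ⧸ K → (Q : Subgroup Γ) := fun c => ⟨((c.out : N) : Γ) * q * ((c.out : N) : Γ)⁻¹, hNmem _ _ hq⟩
  let x : (Q : Subgroup Γ) := ∏ c : N ⧸ K, term c
  -- the key identity: the product is fixed by the normalizer
  have hterm : ∀ (m : N) (c : N ⧸ K), (m : Γ) * (term c : Γ) * (m : Γ)⁻¹ = (term (m • c) : Γ) := by
    intro m c
    have h1 : QuotientGroup.mk (m * c.out) = m • c := by
      conv_rhs => rw [← QuotientGroup.out_eq' c]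
      rfl
    have h2 : ((m • c).out : N ⧸ K) = QuotientGroup.mk (m * c.out) := by
      rw [QuotientGroup.out_eq', h1]
    have h3 := QuotientGroup.eq.1 h2
    obtain ⟨k, hk⟩ : ∃ k : Γ, k = (((m • c).out : N) : Γ)⁻¹ * ((m : Γ) * ((c.out : N) : Γ)) := ⟨_, rfl⟩
    have hkQ : k ∈ (Q : Subgroup Γ) := by
      rw [hk]
      have h4 := Subgroup.mem_subgroupOf.1 h3
      simpa using h4
    have hkq : k * q = q * k := hab k hkQ q hq
    have h5 : (m : Γ) * ((c.out : N) : Γ) = ((m • c).out : N) * k := by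
      rw [hk]
      group
    show (m : Γ) * (((c.out : N) : Γ) * q * ((c.out : N) : Γ)⁻¹) * (m : Γ)⁻¹ = ((m • c).out : N) * q * (((m • c).out : N) : Γ)⁻¹
    calc (m : Γ) * (((c.out : N) : Γ) * q * ((c.out : N) : Γ)⁻¹) * (m : Γ)⁻¹
        = ((m : Γ) * ((c.out : N) : Γ)) * q * ((m : Γ) * ((c.out : N) : Γ))⁻¹ := by group
      _ = (((m • c).out : N) * k) * q * (((m • c).out : N) * k)⁻¹ := by rw [h5]
      _ = ((m • c).out : N) * (k * q) * k⁻¹ * (((m • c).out : N) : Γ)⁻¹ := by group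
      _ = ((m • c).out : N) * (q * k) * k⁻¹ * (((m • c).out : N) : Γ)⁻¹ := by rw [hkq]
      _ = ((m • c).out : N) * q * (((m • c).out : N) : Γ)⁻¹ := by group
  have hfix : ∀ m : N, (m : Γ) * (x : Γ) * (m : Γ)⁻¹ = (x : Γ) := by
    intro m
    let μ : (Q : Subgroup Γ) →* (Q : Subgroup Γ) :=
      { toFun := fun u => ⟨(m : Γ) * (u : Γ) * (m : Γ)⁻¹, hNmem _ _ u.2⟩
        map_one' := by
          apply Subtype.ext
          simp
        map_mul' := by
          intro u v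
          apply Subtype.ext
          show (m : Γ) * ((u : Γ) * (v : Γ)) * (m : Γ)⁻¹ = ((m : Γ) * (u : Γ) * (m : Γ)⁻¹) * ((m : Γ) * (v : Γ) * (m : Γ)⁻¹)
          group }
    have h1 : μ x = x := by
      show μ (∏ c : N ⧸ K, term c) = ∏ c : N ⧸ K, term c
      rw [map_prod]
      have h2 : ∀ c, μ (term c) = term (m • c) := fun c => Subtype.ext (hterm m c)
      simp only [h2]
      exact Fintype.prod_equiv (MulAction.toPerm m) _ _ (fun _ => rfl)
    exact congrArg Subtype.val h1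
  -- the product modulo `H`
  letI cH : CommGroup (Γ ⧸ H) :=
    { (inferInstance : Group (Γ ⧸ H)) with
      mul_comm := by
        intro a b
        obtain ⟨a, rfl⟩ := QuotientGroup.mk_surjective a
        obtain ⟨b, rfl⟩ := QuotientGroup.mk_surjective b
        have h1 : ((a * b * a⁻¹ * b⁻¹ : Γ) : Γ ⧸ H) = 1 := (QuotientGroup.eq_one_iff _).2 (hcomm a b)
        rw [← QuotientGroup.mk_mul, ← QuotientGroup.mk_mul]
        refine QuotientGroup.eq.2 ?_
        have h2 : (a * b)⁻¹ * (b * a) = b⁻¹ * a⁻¹ * b⁻¹⁻¹ * a⁻¹⁻¹ := by group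
        rw [h2]
        exact hcomm _ _ }
  let π : (Q : Subgroup Γ) →* Γ ⧸ H :=
    { toFun := fun u => ((u : Γ) : Γ ⧸ H)
      map_one' := rfl
      map_mul' := fun _ _ => rfl }
  have hπ : ∀ c, π (term c) = ((q : Γ) : Γ ⧸ H) := by
    intro c
    show (((c.out : N) : Γ) * q * ((c.out : N) : Γ)⁻¹ : Γ) = ((q : Γ) : Γ ⧸ H)
    refine QuotientGroup.eq.2 ?_
    have h1 := hcomm ((c.out : N) : Γ) q
    have h2 := hcomm q ((c.out : N) : Γ)
    have h3 : (((c.out : N) : Γ) * q * ((c.out : N) : Γ)⁻¹)⁻¹ * q = ((c.out : N) : Γ) * q⁻¹ * ((c.out : N) : Γ)⁻¹ * q⁻¹⁻¹ := by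
      group
    rw [h3]
    exact hcomm _ _
  have hπx : π x = ((q : Γ) : Γ ⧸ H) ^ Fintype.card (N ⧸ K) := by
    show π (∏ c : N ⧸ K, term c) = _
    rw [map_prod]
    simp only [hπ]
    simp
  have hodd : ¬ 2 ∣ Fintype.card (N ⧸ K) := by
    have h1 : Fintype.card (N ⧸ K) = K.index := by
      rw [Subgroup.index, Nat.card_eq_fintype_card]
    rw [h1]
    have hle : (Q : Subgroup Γ) ≤ N := Subgroup.le_normalizer
    have h2 : K.index ∣ (Q : Subgroup Γ).index := by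
      have h3 := Subgroup.relIndex_mul_index hle
      have h4 : K.index = (Q : Subgroup Γ).relIndex N := rfl
      rw [h4, ← h3]
      exact dvd_mul_right _ _
    exact fun h => Q.not_dvd_index (h.trans h2)
  have hxH : (x : Γ) ∉ H := by
    intro hx
    apply hqH
    have h1 : π x = 1 := (QuotientGroup.eq_one_iff _).2 hx
    rw [hπx] at h1
    obtain ⟨j, hj⟩ := h2 q
    have h3 : ((q : Γ) : Γ ⧸ H) ^ (2 ^ j) = 1 := by
      rw [← QuotientGroup.mk_pow]
      exact (QuotientGroup.eq_one_iff _).2 hj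
    have h4 := (pow_gcd_eq_one).2 ⟨h1, h3⟩
    have h5 : (Fintype.card (N ⧸ K)).gcd (2 ^ j) = 1 := by
      apply Nat.Coprime.pow_right
      exact ((Nat.Prime.coprime_iff_not_dvd Nat.prime_two).2 hodd).symm
    rw [h5, pow_one] at h4
    exact (QuotientGroup.eq_one_iff _).1 h4
  have hx1 : x ≠ 1 := by
    rintro h
    apply hxH
    rw [h]
    exact H.one_mem
  -- the involution
  obtain ⟨m, hm⟩ := (IsPGroup.iff_orderOf.1 Q.isPGroup') x
  have hm0 : m ≠ 0 := by
    rintro rfl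
    rw [pow_zero, orderOf_eq_one_iff] at hm
    exact hx1 hm
  obtain ⟨m', rfl⟩ := Nat.exists_eq_succ_of_ne_zero hm0
  have hxpos : orderOf x ≠ 0 := by
    rw [hm]
    positivity
  have ht0 : orderOf (x ^ (orderOf x / 2)) = 2 :=
    orderOf_pow_orderOf_div hxpos (by rw [hm]; exact dvd_pow_self 2 (Nat.succ_ne_zero _))
  obtain ⟨t, htdef⟩ : ∃ t : (Q : Subgroup Γ), t = x ^ (orderOf x / 2) := ⟨_, rfl⟩
  rw [← htdef] at ht0
  have ht : orderOf (t : Γ) = 2 := by rw [Subgroup.orderOf_coe]; exact ht0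
  have htfix : ∀ m : N, (m : Γ) * (t : Γ) * (m : Γ)⁻¹ = (t : Γ) := by
    intro m
    rw [htdef]
    push_cast
    rw [← conj_pow, hfix]
  have htt : (t : Γ) * (t : Γ) = 1 := by
    have := pow_orderOf_eq_one (t : Γ)
    rwa [ht, sq] at this
  have hiso : ∀ g : Γ, g * (t : Γ) * g⁻¹ ∈ Q → g * (t : Γ) * g⁻¹ = t := by
    intro g hg
    have hcen : ∀ (u v : Γ), u ∈ (Q : Subgroup Γ) → v ∈ (Q : Subgroup Γ) → (fun y => u * y * u⁻¹) '' ({v} : Set Γ) = {v} := by
      intro u v hu hv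
      rw [Set.image_singleton]
      congr 1
      rw [hab u hu v hv]
      group
    obtain ⟨n, hn, hn2⟩ := CfsgLib.Trans.burnside_fusion Q ({t.1} : Set Γ) ({g * (t : Γ) * g⁻¹} : Set Γ)
      (fun u hu => hcen u _ hu hg) (fun u hu => hcen u _ hu t.2) g (by rw [Set.image_singleton])
    rw [Set.image_singleton, Set.singleton_eq_singleton_iff] at hn2
    rw [← hn2]
    exact htfix ⟨n, hn⟩
  obtain ⟨N₀, hn, hoddN, hcen⟩ := Cfsg.Agent.S0215.result Q (t : Γ) ht t.2 hiso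
  have hbot := hO N₀ hn hoddN
  have hzc : ∀ g : Γ, (t : Γ) * g = g * (t : Γ) := by
    intro g
    have h1 := hcen g
    rw [hbot, Subgroup.mem_bot] at h1
    have h3 : (t : Γ) * g * (t : Γ)⁻¹ * g⁻¹ = 1 := h1
    rw [mul_inv_eq_one, mul_inv_eq_iff_eq_mul] at h3
    exact h3
  have ht1 := hZ _ htt hzc
  rw [ht1, orderOf_one] at ht
  omega

end Main

end CfsgLib.ZStarAb
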